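import Cfsg.Agent.Lib.Orth.Simple
import Cfsg.Agent.Lib.Orth.Class
import Cfsg.Agent.Lib.Orth.Omega

/-!
# Linear algebra for `Lib/W4/PG` (helper27): the quadratic space on a graph, and recognition of `Ω₈^±(2)`
-/

set_option autoImplicit false

namespace Cfsg.Lib.W4.PGa

open Subgroup QuadraticMap Module Cfsg.Lib.Orth

universe u

/-- The quadratic space spanned by singular vectors with prescribed products, modulo its radical. -/
theorem exists_space {X : Type u} [Finite X] (b : X → X → ZMod 2) (hs : ∀ x y, b x y = b y x) (h0 : ∀ x, b x x = 0) :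
    ∃ (W : Type u) (_ : AddCommGroup W) (_ : Module (ZMod 2) W) (_ : Finite W) (q : QuadraticForm (ZMod 2) W) (φ : X → W),
      Submodule.span (ZMod 2) (Set.range φ) = ⊤ ∧ (∀ x, q (φ x) = 0) ∧ (∀ x y, polar q (φ x) (φ y) = b x y) ∧
      ∀ w, q w = 0 → (∀ x, polar q w (φ x) = 0) → w = 0 := by
  classical
  let := Fintype.ofFinite X
  let o : LinearOrder X := linearOrderOfSTO WellOrderingRel
  let B : LinearMap.BilinForm (ZMod 2) (X → ZMod 2) := Matrix.toBilin' (Matrix.of fun x y => if o.lt x y then b x y else 0)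
  let Q : QuadraticForm (ZMod 2) (X → ZMod 2) := B.toQuadraticMap
  have hB : ∀ x y, B (Pi.single x 1) (Pi.single y 1) = if o.lt x y then b x y else 0 := fun x y => by
    simp [B, Matrix.toBilin'_single]
  have hp : ∀ v w, polar (Q.lift Q.radical le_rfl) (Submodule.Quotient.mk v) (Submodule.Quotient.mk w) = polar Q v w :=
    fun v w => rfl
  have hsp : Submodule.span (ZMod 2) (Set.range fun x : X => (Pi.single x 1 : X → ZMod 2)) = ⊤ := by
    have := (Pi.basisFun (ZMod 2) X).span_eq
    simpa [Pi.basisFun_apply, funext (Pi.basisFun_apply (ZMod 2) X)] using this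
  refine ⟨(X → ZMod 2) ⧸ Q.radical, inferInstance, inferInstance, Finite.of_surjective _ (Submodule.mkQ_surjective _),
    Q.lift Q.radical le_rfl, fun x => Submodule.Quotient.mk (Pi.single x 1), ?_, fun x => ?_, fun x y => ?_, fun w h1 h2 => ?_⟩
  · have := congrArg (Submodule.map Q.radical.mkQ) hsp
    rw [Submodule.map_span, ← Set.range_comp, Submodule.map_top, Submodule.range_mkQ] at this
    exact this
  · rw [lift_mk, LinearMap.BilinMap.toQuadraticMap_apply, hB, if_neg (lt_irrefl x)]
  · rw [hp, LinearMap.BilinMap.polar_toQuadraticMap, hB, hB]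
    rcases lt_trichotomy x y with h | rfl | h
    · rw [if_pos h, if_neg (not_lt_of_gt h), add_zero]
    · rw [if_neg (lt_irrefl x), h0, add_zero]
    · rw [if_pos h, if_neg (not_lt_of_gt h), zero_add, hs]
  · obtain ⟨w, rfl⟩ := Submodule.Quotient.mk_surjective _ w
    refine (Submodule.Quotient.mk_eq_zero _).2 ⟨h1, LinearMap.ext_on hsp ?_⟩
    rintro _ ⟨x, rfl⟩
    exact h2 x

/-- A group that is faithfully the group generated by the Eichler maps in dimension eight. -/
theorem omega8 {W L : Type*} [AddCommGroup W] [Module (ZMod 2) W] [Finite W] [Group L] {q : QuadraticForm (ZMod 2) W}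
    (hq : ND q) (h8 : finrank (ZMod 2) W = 8) (ρ : L →* O q) (hi : Function.Injective ρ) (hr : ρ.range = eichGroup q) :
    Nonempty (L ≃* POmega (ZMod 2) (quadFormPlus 4 (ZMod 2))) ∨
      Nonempty (L ≃* POmega (ZMod 2) (quadFormMinus 3 (ZMod 2) 1 1)) := by
  have hE : ¬ Exc q := not_exc_of_five_le (by omega)
  have hz : center (commutator (O q)) = ⊥ := eq_bot_iff.2 fun g hg => by
    rw [mem_center_commutator_iff hq hE (by omega), neg_eq_one_of_two_eq_zero rfl] at hg
    simpa using hg
  have e : L ≃* PCom (O q) := ((MonoidHom.ofInjective hi).trans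
    (MulEquiv.subgroupCongr (hr.trans (commutator_eq_eichGroup' hq hE (by omega)).symm))).trans
    ((QuotientGroup.quotientMulEquivOfEq hz).trans QuotientGroup.quotientBot).symm
  rcases wittIndex_eq_or hq (m := 4) h8 with h | h
  · obtain ⟨i⟩ := equivalent_qPlus hq (m := 4) h8 h.ge
    exact .inl ⟨(e.trans (pcomCongr (O.congr i.toLinearEquiv one_ne_zero fun v => by simp))).trans
      (pomegaEquiv (qPlus 4 (ZMod 2))).symm⟩
  · obtain ⟨i⟩ := equivalent_qMinus hq (m := 3) h8 (by omega) (a := 1) (b := 1) (by decide)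
    exact .inr ⟨(e.trans (pcomCongr (O.congr i.toLinearEquiv one_ne_zero fun v => by simp))).trans
      (pomegaEquiv (qMinus 3 (ZMod 2) 1 1)).symm⟩

end Cfsg.Lib.W4.PGa
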